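import Cfsg.Agent.H15.He7.Main
import Cfsg.Agent.H44.Components
import Cfsg.Agent.S1258

/-! Groups of Monster type: the normaliser of a subgroup of order 7 of `C(z, s)`. -/

set_option autoImplicit false

namespace Cfsg.Agent.H15

open Subgroup H97 H14 He7

theorem exists_invert {A B : Type*} [Group A] [Group B] (f : A →* B) (hk : ¬ 7 ∣ Nat.card f.ker)
    (h4 : ∀ a, f a = 1 → a ^ 4 = 1) {t γ : A} (ht : t * t = 1) (hγ : γ ^ 7 = 1)
    (h : f t * f γ * f t * f γ = 1) : ∃ u, u * u = 1 ∧ u * γ * u⁻¹ = γ⁻¹ := by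
  have h7 : f γ ^ (7 : ℤ) = 1 := by rw [← map_zpow]; exact (congrArg f (mod_cast hγ)).trans (map_one f)
  have hw : f (t * γ * t * γ⁻¹) = f γ ^ (-2 : ℤ) := by
    rw [map_mul, map_mul, map_mul, eq_inv_of_mul_eq_one_left h, map_inv]; group
  have h1 : t * (t * γ * t * γ⁻¹) * t⁻¹ = (t * γ * t * γ⁻¹)⁻¹ := by
    rw [← mul_assoc, ← mul_assoc, ← mul_assoc, ht, one_mul, mul_inv_rev, mul_inv_rev, mul_inv_rev,
      inv_eq_of_mul_eq_one_right ht]
    group
  generalize t * γ * t * γ⁻¹ = w at hw h1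
  obtain ⟨c, -, e⟩ := exists_tw_lift f (by norm_num) hk hγ (γ := w ^ 24) (a := 1)
    (by
      rw [← pow_mul, show 24 * 7 = 7 * (4 * 6) from rfl, pow_mul, pow_mul, h4, one_pow]
      rw [map_pow, hw, ← zpow_natCast, ← zpow_mul, mul_comm, zpow_mul]
      exact (congrArg (· ^ (-2 : ℤ)) h7).trans (one_zpow _))
    (by
      rw [map_one, mul_one, one_mul, map_pow, hw, ← zpow_natCast, ← zpow_mul]
      calc _ = (f γ ^ (7 : ℤ)) ^ (-7 : ℤ) * f γ := by group
        _ = _ := by rw [h7, one_zpow, one_mul])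
  refine ⟨c⁻¹ * t * c, by simpa [mul_assoc] using congrArg (MulAut.conj c⁻¹) ht, ?_⟩
  calc _ = c⁻¹ * (t * (c * γ * c⁻¹) * t⁻¹) * c := by group
    _ = c⁻¹ * (c * γ * c⁻¹)⁻¹ * c := by rw [← e, mul_inv_cancel_right, ← conj_pow, h1, inv_pow]
    _ = _ := by group

theorem mem_norm_zpowers {G : Type*} [Group G] [Finite G] {n γ : G} (i : ℤ) (h : n * γ * n⁻¹ = γ ^ i) :
    n ∈ normalizer (zpowers γ : Set G) := H43.mem_normalizer_of_conj_mem (by
  rintro _ ⟨j, rfl⟩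
  exact ⟨i * j, by simp only [zpow_mul, ← h, conj_zpow]⟩)

theorem relIndex_six {G : Type*} [Group G] [Finite G] {n γ : G} (hγ : orderOf γ = 7)
    (h : n * γ * n⁻¹ = γ ^ 5) :
    (centralizer (zpowers γ : Set G)).relIndex (normalizer (zpowers γ : Set G)) = 6 := by
  have h1 := card_subgroup_dvd_card (zpowers γ).normalizerMonoidHom.range
  rw [IsCyclic.card_mulAut, Nat.card_zpowers, hγ, ← index_ker, normalizerMonoidHom_ker] at h1
  have := (zpowers γ).normalizerMonoidHom_ker ▸ (zpowers γ).normalizerMonoidHom.normal_ker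
  have h2 := ((centralizer (zpowers γ : Set G)).subgroupOf (normalizer (zpowers γ : Set G))).pow_index_mem
    ⟨n, mem_norm_zpowers 5 (mod_cast h)⟩
  have h3 : ∀ d : ℕ, n ^ d * γ * (n ^ d)⁻¹ = γ ^ 5 ^ d := fun d => by
    induction d with
    | zero => simp
    | succ d ih => rw [pow_succ 5, pow_mul, ← ih, conj_pow, ← h, pow_succ]; group
  rw [relIndex]
  generalize ((centralizer (zpowers γ : Set G)).subgroupOf (normalizer (zpowers γ : Set G))).index = d
    at h1 h2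
  have h4 := h3 d
  rw [← show γ * n ^ d = n ^ d * γ from h2 γ (mem_zpowers γ), mul_inv_cancel_right] at h4
  have h5 := pow_eq_pow_iff_modEq.1 ((pow_one γ).trans h4)
  rw [hγ] at h5
  have h6 := Nat.le_of_dvd (by decide) h1
  change d ≤ 6 at h6
  interval_cases d <;> revert h1 h5 <;> decide

theorem mem_layer {X : Type*} [Group X] [Finite X] {N : Subgroup X} [N.Normal] (hN : N ≤ center X)
    (h7 : ∀ x ∈ N, x ^ 7 = 1) (e : X ⧸ N ≃* Spor.He) {x : X} (hx : x * x = 1) : x ∈ layer X := by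
  have := H58.HeP.simple
  have := H58.HeP.finite
  have hs := e.isSimpleGroup
  have hna : ¬ IsMulCommutative (X ⧸ N) := fun h => by
    have := @IsSimpleGroup.prime_card (X ⧸ N) { (inferInstance : Group (X ⧸ N)) with mul_comm := h.1.1 } hs
    rw [Nat.card_congr e.toEquiv, H58.HeP.card_eq] at this
    exact absurd (this.eq_two_or_odd) (by norm_num)
  obtain rfl : N = center X := le_antisymm hN fun a ha => by
    rcases (Subgroup.normal_of_characteristic (center (X ⧸ N))).eq_bot_or_eq_top with h | h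
    · refine (QuotientGroup.eq_one_iff a).1 (mem_bot.1 (h ▸ mem_center_iff.2 fun g => ?_))
      obtain ⟨g, rfl⟩ := QuotientGroup.mk_surjective g
      exact congrArg QuotientGroup.mk (mem_center_iff.1 ha g)
    · exact absurd ⟨⟨fun a b => mem_center_iff.1 (h ▸ mem_top b) a⟩⟩ hna
  obtain ⟨h1, h2⟩ := S1258.result hs hna
  refine le_sSup (s := {K | IsComponent K}) ⟨Subgroup.Normal.isSubnormal inferInstance, h2⟩ ?_
  obtain ⟨c, hc, β, hβ, rfl⟩ := mem_sup_of_normal_left.1 (h1 ▸ mem_top x)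
  have h3 : c ^ 2 * β ^ 2 = 1 := by
    rw [← Commute.mul_pow (mem_center_iff.1 hβ c), pow_two, hx]
  have h4 := pow_mem ((mul_mem_cancel_left (pow_mem hc 2)).1 (h3 ▸ one_mem _)) 4
  rw [← pow_mul, show 2 * 4 = 7 + 1 from rfl, pow_succ, h7 β hβ, one_mul] at h4
  exact mul_mem hc h4

universe u

variable {G : Type u} [Group G] {z : G}

namespace MD

variable {Q : Subgroup G} {π : centralizer ({z} : Set G) →* Spor.Co1}
  {R : G → leechLattice → Prop} (M : MD z Q π R)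
  [Finite G] {g : G} (hs : g * z * g⁻¹ ∈ Q) (hne : g * z * g⁻¹ ≠ z)
  {γ : centralizer ({z} : Set G)} (hγ : (γ : G) ^ 7 = 1) {b : M24} (hb : GE.pk b = m24_7A.X)
  (hπ : (permC b : Spor.Co1) = π γ)
include M hs hne hγ hb hπ

theorem exists_inv7 : ∃ t : G, t * t = 1 ∧ t * γ * t⁻¹ = (γ : G)⁻¹ := by
  obtain ⟨k, ε, hε, e⟩ := exists_inv hb
  have M' := M.twist k
  obtain ⟨s, h8⟩ := M'.ex' (e8 none)
  obtain ⟨c, rfl⟩ := isConj_iff.1 (M'.isConj_of_four hs hne h8 (sqNorm_e8 _))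
  obtain ⟨t, t1, t2⟩ := M'.exists_invol (M.mem h8)
    (M'.ne_of_short h8 (by rw [sqNorm_e8]; norm_num) (sqNorm_e8 _).le).2 h8 hε
  obtain ⟨u, u1, u2⟩ := exists_invert _ (M'.card_ker ▸ not_dvd_two_pow (by norm_num) (by decide) _)
    (fun a ha => Subtype.ext (M.q4 ((M'.ker a).1 ha))) t1 (γ := γ) (Subtype.ext hγ) (by
      rw [← t2, MonoidHom.comp_apply, ← hπ]
      exact congrArg QuotientGroup.mk e)
  exact ⟨u, congrArg Subtype.val u1, congrArg Subtype.val u2⟩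

omit hs hne in
theorem exists_sq7 : ∃ c : G, c * γ * c⁻¹ = γ ^ 2 := by
  obtain ⟨σ, e⟩ := exists_sq hb
  obtain ⟨a, ha⟩ := M.lift (permC σ)
  obtain ⟨c, -, e'⟩ := exists_tw_lift π (p := 7) (by norm_num)
    (M.card_ker ▸ not_dvd_two_pow (by norm_num) (by decide) _) (β := γ) (γ := γ ^ 2) (a := a)
    (Subtype.ext hγ) (by rw [← pow_mul, mul_comm, pow_mul, show γ ^ 7 = 1 from Subtype.ext hγ, one_pow])
    (by
      rw [map_pow, ← ha, ← hπ, ← QuotientGroup.mk_pow, ← QuotientGroup.mk_mul, ← QuotientGroup.mk_mul,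
        ← permC_mul, e, permC_mul, pow_two, pow_two, permC_mul])
  exact ⟨c, mul_inv_eq_iff_eq_mul.2 (congrArg Subtype.val e').symm⟩

omit hs hγ in
theorem not_inv7 (h8 : R (g * z * g⁻¹) (e8 none)) {a : G} (h1 : a * z = z * a)
    (h2 : a * (g * z * g⁻¹) = g * z * g⁻¹ * a) : a * γ * a⁻¹ ≠ (γ : G)⁻¹ := fun e => by
  let a' : centralizer ({z} : Set G) := ⟨a, mem_centralizer_singleton_iff.2 h1⟩
  obtain ⟨k, hk⟩ := lift' (π := π) a'
  have hm : k ∈ monoN := M.pb_L hne h8 ▸ mem_pb.2 ⟨_, ⟨a'.2, mem_centralizer_singleton_iff.2 h2⟩, hk⟩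
  refine not_inv hb (monoP ⟨k, hm⟩) ?_
  rw [← monoP_permC b, ← map_inv, ← map_inv, ← map_mul, ← map_mul]
  refine monoP_congr ?_
  simp only [coe_mul, coe_inv, QuotientGroup.mk_mul, QuotientGroup.mk_inv, hk, hπ, ← map_inv, ← map_mul]
  exact congrArg π (Subtype.ext e)

omit hγ hb hπ in
theorem aut7 {B : Subgroup G} (hB : B ≤ centralizer ({z, g * z * g⁻¹} : Set G))
    (hBp : Nat.card B = 7 ^ (Nat.card (centralizer ({z, g * z * g⁻¹} : Set G))).factorization 7) :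
    (centralizer (B : Set G)).relIndex (normalizer (B : Set G)) = 6 ∧ ∃ t : G, orderOf t = 2 ∧
      (∀ b ∈ B, t * b * t⁻¹ = b⁻¹) ∧
      (∀ x ∈ H44.Eof (centralizer (B : Set G)), t * x * t⁻¹ ∈ H44.Eof (centralizer (B : Set G))) ∧
      ¬ ∃ l ∈ H44.Eof (centralizer (B : Set G)), ∀ x ∈ H44.Eof (centralizer (B : Set G)),
        t * x * t⁻¹ = l * x * l⁻¹ := by
  obtain ⟨b, hb⟩ := exists_rep24 (cl := m24_7A) (by simp [m24Cl])
  obtain ⟨k, γ, e, h1, h2, h3, h4, h5⟩ := M.exists_gen7 hs hne hB hBp hb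
  have M' := M.twist k
  have hc : B.subgroupOf (centralizer (B : Set G)) ≤ center _ := fun a ha =>
    mem_center_iff.2 fun x => Subtype.ext (x.2 _ ha).symm
  have : (B.subgroupOf (centralizer (B : Set G))).Normal :=
    ⟨fun a ha x => by rwa [mem_center_iff.1 (hc ha) x, mul_inv_cancel_right]⟩
  obtain ⟨φ⟩ := M.isoHe hs hne hB hBp
  have hl : ∀ x : G, x * x = 1 → x * γ = γ * x → x ∈ H44.Eof (centralizer (B : Set G)) := fun x e1 e2 =>
    ⟨⟨x, fun a ha => (comm_of_zpowers (e ▸ ha) e2).symm⟩,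
      mem_layer hc (fun a ha => Subtype.ext (pow_of_zpowers (e ▸ ha) h1)) φ (Subtype.ext e1), rfl⟩
  obtain ⟨t, t1, t2⟩ := M'.exists_inv7 hs hne h1 hb h5
  obtain ⟨c, hc⟩ := M'.exists_sq7 h1 hb h5
  have : Fact (Nat.Prime 7) := ⟨by norm_num⟩
  have o := orderOf_eq_prime h1 h2
  refine ⟨e ▸ relIndex_six (n := t * c) o ?_, t, orderOf_two (fun e' => h2 ?_) t1, ?_,
    fun x hx => H43.conj_mem_of_mem_normalizer (H44.normalizer_le_normalizer_Eof _
      (H44.normalizer_le_normalizer_centralizer _ (e ▸ mem_norm_zpowers (-1) (by simpa using t2)))) hx, ?_⟩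
  · calc _ = t * (c * γ * c⁻¹) * t⁻¹ := by group
      _ = _ := by
        rw [hc, ← conj_pow, t2, inv_pow, inv_eq_iff_mul_eq_one, ← pow_add, h1]
  · rw [e', one_mul, inv_one, mul_one, eq_inv_iff_mul_eq_one, ← pow_two] at t2
    exact eq_one_of_odd (n := 1) (by decide) h1 t2
  · rw [e]
    rintro _ ⟨i, rfl⟩
    simp only [← conj_zpow, t2, inv_zpow]
  · rintro ⟨l, hl', h⟩
    have key : ∀ x : G, x * x = 1 → x * γ = γ * x → l⁻¹ * t * x = x * (l⁻¹ * t) := fun x e1 e2 => by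
      calc _ = l⁻¹ * (t * x * t⁻¹) * t := by group
        _ = _ := by rw [h x (hl x e1 e2)]; group
    refine M'.not_inv7 hne hb h5 h4 (key _ M.lx.sq (mem_centralizer_singleton_iff.1 γ.2).symm)
      (key _ (M.cj g).lx.sq h3.symm) ?_
    obtain ⟨l, -, rfl⟩ := hl'
    calc _ = (l : G)⁻¹ * (t * γ * t⁻¹) * l := by simp [mul_assoc]
      _ = _ := by
        rw [t2, mul_assoc, l.2 _ (e ▸ inv_mem (mem_zpowers (γ : G))), inv_mul_cancel_left]

end MD

end Cfsg.Agent.H15
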